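import Cfsg.Agent.S3FreeOffender.Thompson
import Cfsg.Agent.SectionFunctors.Fusion
import Cfsg.Agent.SectionFunctors.JHat
import Cfsg.Agent.QdSection.SylowNormalizer
import Cfsg.Agent.S2761

/-!
Centre and Thompson subgroup control fusion in `S₄`-free groups; no family of characteristic functors
controls fusion in `Qd(p)`.
-/

set_option autoImplicit false
set_option linter.style.haveILetI false

open Cfsg
open CfsgLib.ConjFunctor

namespace CfsgLib.S3FreeOffender

universe u

/-- The centre, as a functor. -/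
def centerFunctor : ∀ (Q : Type u) [Group Q], Subgroup Q := fun Q _ => Subgroup.center Q

/-- The Thompson subgroup, as a functor. -/
def thompsonFunctor : ∀ (Q : Type u) [Group Q], Subgroup Q := fun Q _ => thompsonSubgroup 2 Q

theorem isCharPFunctor_centerFunctor (p : ℕ) [Fact p.Prime] : IsCharPFunctor.{u} p centerFunctor := by
  refine ⟨fun Q _ _ hQ _ h => ?_, fun Q R _ _ _ _ φ => ?_⟩
  · haveI := hQ.center_nontrivial
    exact (Subgroup.nontrivial_iff_ne_bot _).mp this h
  · ext y
    constructor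
    · rintro ⟨x, hx, rfl⟩
      exact Subgroup.mem_center_iff.mpr fun z => by
        obtain ⟨w, rfl⟩ := φ.surjective z
        show φ w * φ x = φ x * φ w
        rw [← map_mul, ← map_mul, Subgroup.mem_center_iff.mp hx w]
    · intro hy
      obtain ⟨x, rfl⟩ := φ.surjective y
      exact ⟨x, Subgroup.mem_center_iff.mpr fun w => φ.injective (by
        rw [map_mul, map_mul]; exact Subgroup.mem_center_iff.mp hy (φ w)), rfl⟩

theorem isCharPFunctor_thompsonFunctor : IsCharPFunctor.{u} 2 thompsonFunctor :=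
  CfsgLib.SectionFunctors.isCharPFunctor_thompson

theorem inducedFunctor_center {X : Type u} [Group X] (P : Subgroup X) :
    inducedFunctor (G := X) centerFunctor P = P ⊓ Subgroup.centralizer (P : Set X) := by
  ext x
  constructor
  · rintro ⟨z, hz, rfl⟩
    exact ⟨z.2, Subgroup.mem_centralizer_iff.mpr fun y hy =>
      congrArg Subtype.val (Subgroup.mem_center_iff.mp hz ⟨y, hy⟩)⟩
  · rintro ⟨hx, hc⟩
    exact ⟨⟨x, hx⟩, Subgroup.mem_center_iff.mpr fun y =>
      Subtype.ext (Subgroup.mem_centralizer_iff.mp hc y y.2), rfl⟩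

theorem image_pair (X : Type u) [Group X] :
    ((fun W => inducedFunctor (G := X) W) '' ({centerFunctor, thompsonFunctor} :
        Set (∀ (Q : Type u) [Group Q], Subgroup Q))) =
      {fun P : Subgroup X => P ⊓ Subgroup.centralizer (P : Set X),
        fun P : Subgroup X => thompsonSubgroupOf 2 P} := by
  rw [Set.image_pair, show inducedFunctor (G := X) centerFunctor =
    fun P : Subgroup X => P ⊓ Subgroup.centralizer (P : Set X) from funext inducedFunctor_center]
  rfl

/-- Centre and Thompson subgroup control fusion in an `S₄`-free group. -/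
theorem pair_controls {X : Type u} [Group X] [Finite X] (hfree : ¬ Involves (Equiv.Perm (Fin 4)) X) :
    FamilyControlsStrongFusionIn 2 ((fun W => inducedFunctor (G := X) W) '' ({centerFunctor, thompsonFunctor} :
        Set (∀ (Q : Type u) [Group Q], Subgroup Q))) ⊤ := by
  haveI : Fact (Nat.Prime 2) := ⟨Nat.prime_two⟩
  obtain ⟨S⟩ : Nonempty (Sylow 2 X) := inferInstance
  refine familyControlsStrongFusionIn_of_at
    ⟨le_top, S.2, fun h => S.not_dvd_index (by rwa [Subgroup.relIndex_top_right] at h)⟩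
    (CfsgLib.SectionFunctors.fusionControlledAt_top_of_factorization (p := 2) centerFunctor thompsonFunctor
      (isCharPFunctor_centerFunctor 2) isCharPFunctor_thompsonFunctor {centerFunctor, thompsonFunctor}
      (Set.mem_insert _ _) (Set.mem_insert_of_mem _ rfl) ?_ _ X rfl ?_ S)
  · rintro W (rfl | rfl)
    exacts [isCharPFunctor_centerFunctor 2, isCharPFunctor_thompsonFunctor]
  · intro K R _ hc T x
    obtain ⟨c, hcz, n, hn, e⟩ := center_thompson_factorization hc
      (fun h => hfree (CfsgLib.QdSection.involves_of_section K R h)) T x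
    refine ⟨c, ?_, n, hn, e⟩
    rw [inducedFunctor_center]
    exact Subgroup.centralizer_le_normalizer _ hcz

variable {p : ℕ} [Fact p.Prime]

/-- No family of characteristic functors controls fusion in `Qd(p)`. -/
theorem qd_not_controlled {H : Type u} [Group H] [Finite H] (e : H ≃* Cfsg.qd p)
    (𝓦 : Set (∀ (Q : Type u) [Group Q], Subgroup Q)) (h𝓦 : ∀ W ∈ 𝓦, IsCharPFunctor.{u} p W) :
    ¬ FamilyControlsStrongFusionIn p ((fun W => inducedFunctor (G := H) W) '' 𝓦) ⊤ := by
  intro hctl
  obtain ⟨T⟩ : Nonempty (Sylow p H) := inferInstance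
  set S' : Sylow p ↥(Cfsg.qd p) := T.mapSurjective (f := e.toMonoidHom) e.surjective
  have hS' : (S' : Subgroup ↥(Cfsg.qd p)) = (T : Subgroup H).map e.toMonoidHom := Sylow.coe_mapSurjective _ _
  have hcm := CfsgLib.QdSection.normalizer_characteristic S'
  have hnorm : ∀ U : Subgroup H, (Subgroup.normalizer (U : Set H)).map e.toMonoidHom =
      Subgroup.normalizer ((U.map e.toMonoidHom : Subgroup _) : Set _) :=
    fun U => Subgroup.map_equiv_normalizer_eq U e
  have hTne : Nontrivial ↥(T : Subgroup H) := by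
    rw [Subgroup.nontrivial_iff_ne_bot]
    intro hb
    obtain ⟨R, hR⟩ := (CfsgLib.QdSection.isPGroup_qdUpper (p := p)).exists_le_sylow
    have hS : (S' : Subgroup ↥(Cfsg.qd p)) = ⊥ := by rw [hS', hb, Subgroup.map_bot]
    have hcard : Nat.card ↥(R : Subgroup ↥(Cfsg.qd p)) = 1 := by
      rw [Sylow.card_eq_multiplicity R, ← Sylow.card_eq_multiplicity S']
      rw [show Nat.card ↥(S' : Subgroup ↥(Cfsg.qd p)) = 1 by rw [hS, Subgroup.card_bot]]
    have hU : CfsgLib.QdSection.qdUpper p = ⊥ :=
      le_bot_iff.mp (((Subgroup.card_le_one_iff_eq_bot _).mp hcard.le) ▸ hR)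
    have h1 : CfsgLib.QdRankTwo.tU (1 : ZMod p) = 1 :=
      Subgroup.mem_bot.mp (hU ▸ ⟨1, 0, 0, rfl⟩)
    refine CfsgLib.QdSection.conj_tU_not_mem_qdUpper (p := p) ?_
    rw [h1, mul_one, mul_inv_cancel]
    exact one_mem _
  have hsub : ∀ N ∈ functorNormalizers ((fun W => inducedFunctor (G := H) W) '' 𝓦) ⊤ (T : Subgroup H),
      N ≤ Subgroup.normalizer ((T : Subgroup H) : Set H) := by
    rintro _ ⟨_, ⟨W, hW, rfl⟩, rfl⟩ g ⟨-, hg⟩
    let eT : ↥(T : Subgroup H) ≃* ↥(S' : Subgroup ↥(Cfsg.qd p)) :=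
      ((T : Subgroup H).equivMapOfInjective e.toMonoidHom e.injective).trans (MulEquiv.subgroupCongr hS'.symm)
    set C₀ := (W ↥(T : Subgroup H)).map eT.toMonoidHom with hC₀
    have hne : C₀ ≠ ⊥ := fun h => (h𝓦 W hW).1 _ T.2 hTne
      ((Subgroup.map_eq_bot_iff_of_injective _ eT.injective).mp h)
    have hchar : C₀.Characteristic := by
      refine Subgroup.characteristic_iff_map_eq.2 fun ψ => ?_
      have h1 := (h𝓦 W hW).2 ↥(T : Subgroup H) ↥(T : Subgroup H) T.2 ((eT.trans ψ).trans eT.symm)
      conv_rhs => rw [hC₀, ← h1]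
      rw [hC₀, Subgroup.map_map, Subgroup.map_map]
      congr 1
      ext x
      simp
    obtain ⟨hN, -⟩ := hcm C₀ hne hchar
    have hC₀' : C₀.map (S' : Subgroup ↥(Cfsg.qd p)).subtype =
        (inducedFunctor (G := H) W (T : Subgroup H)).map e.toMonoidHom := by
      rw [hC₀, inducedFunctor, Subgroup.map_map, Subgroup.map_map]
      congr 1
    have h2 : e g ∈ Subgroup.normalizer ((S' : Subgroup ↥(Cfsg.qd p)) : Set _) := by
      rw [← hN, hC₀', ← hnorm]
      exact ⟨g, hg, rfl⟩
    rw [hS', ← hnorm] at h2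
    obtain ⟨g', hg', he⟩ := h2
    exact e.injective he ▸ hg'
  have hfus := familyControlsStrongFusionIn_at hctl
    (by rintro _ ⟨W, hW, rfl⟩; exact CfsgLib.SectionFunctors.isConjugacyFunctor_inducedFunctor (h𝓦 W hW))
    (T := (T : Subgroup H)) ⟨le_top, T.2, fun h => T.not_dvd_index (by rwa [Subgroup.relIndex_top_right] at h)⟩
  set V := (CfsgLib.DefChar.qdTranslations p).comap e.toMonoidHom with hV
  haveI hVn : V.Normal := (CfsgLib.DefChar.qdTranslations_normal p).comap _
  have hVT : V ≤ (T : Subgroup H) :=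
    (CfsgLib.Constrained.le_pCore hVn
      ((CfsgLib.DefChar.qdTranslations_isPGroup p).comap_of_injective _ e.injective)).trans
      (CfsgLib.ConjFunctor.pCore_le_sylow T)
  have hall : ∀ h : H, h ∈ Subgroup.normalizer ((T : Subgroup H) : Set H) := by
    intro h
    obtain ⟨x, hx, hxe⟩ := (hfus V h trivial hVT (conjOf_le_iff.mpr fun a ha => hVT (hVn.conj_mem a ha h)))
      |>.mono_sets (T := (T : Subgroup H)) (𝒩' := {Subgroup.normalizer ((T : Subgroup H) : Set H)}) le_rfl
        (fun N hN => ⟨_, rfl, hsub N hN⟩) |>.exists_mem_of_singleton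
    have hc : x⁻¹ * h ∈ V := by
      show e (x⁻¹ * h) ∈ CfsgLib.DefChar.qdTranslations p
      refine CfsgLib.QdSection.centralizer_translations (Subgroup.mem_centralizer_iff.2 fun w hw => ?_)
      obtain ⟨a, rfl⟩ := e.surjective w
      have h1 := hxe a hw
      rw [← map_mul, ← map_mul]
      congr 1
      calc a * (x⁻¹ * h) = x⁻¹ * (x * a * x⁻¹) * h := by group
        _ = x⁻¹ * (h * a * h⁻¹) * h := by rw [h1]
        _ = (x⁻¹ * h) * a := by group
    have h2 : h = x * (x⁻¹ * h) := by group
    rw [h2]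
    exact Subgroup.mul_mem _ hx (Subgroup.le_normalizer (hVT hc))
  have hbad := (hcm ⊤ ?_ inferInstance).2
  · refine hbad (eq_top_iff.mpr fun y _ => ?_)
    obtain ⟨h, rfl⟩ := e.surjective y
    rw [hS', ← hnorm]
    exact ⟨h, hall h, rfl⟩
  · intro htop
    haveI := hTne
    have h1 : (⊤ : Subgroup ↥(S' : Subgroup ↥(Cfsg.qd p))) ≠ ⊥ := by
      haveI : Nontrivial ↥(S' : Subgroup ↥(Cfsg.qd p)) :=
        (((T : Subgroup H).equivMapOfInjective e.toMonoidHom e.injective).trans
          (MulEquiv.subgroupCongr hS'.symm)).symm.toEquiv.nontrivial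
      exact top_ne_bot
    exact h1 htop

end CfsgLib.S3FreeOffender
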